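/-
Sylow numbers: a normal subgroup normalising all Sylow subgroups.
-/
import Mathlib

set_option autoImplicit false
set_option linter.style.haveILetI false

namespace Cfsg.Agent.SyN

open Subgroup MulAction

variable {G : Type*} [Group G] [Finite G]

theorem eq_top_of_sylow (H : Subgroup G)
    (h : ∀ (p : ℕ) [Fact p.Prime], ∃ P : Sylow p G, (P : Subgroup G) ≤ H) : H = ⊤ := by
  rw [← index_eq_one]
  by_contra hne
  obtain ⟨p, hp, hd⟩ := Nat.exists_prime_and_dvd hne
  haveI := Fact.mk hp
  obtain ⟨P, hP⟩ := h p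
  exact P.not_dvd_index (hd.trans (index_dvd_of_le hP))

theorem ker_bot (hZ : center G = ⊥) (K : Subgroup G) [hK : K.Normal]
    (h : ∀ (p : ℕ) [Fact p.Prime] (P : Sylow p G), K ≤ normalizer ((P : Subgroup G) : Set G)) :
    K = ⊥ := by
  by_contra hne
  obtain ⟨p, hp, hd⟩ := Nat.exists_prime_and_dvd (fun h1 => hne (card_eq_one.1 h1))
  haveI := Fact.mk hp
  let P : Sylow p G := Sylow.nonempty.some
  -- `p`-elements of `K` lie in every Sylow `p`-subgroup
  have key : ∀ (Q : Sylow p G) (x : G), x ∈ K → IsPGroup p (zpowers x) → x ∈ (Q : Subgroup G) := by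
    intro Q x hx hpx
    have := hpx.inf_normalizer_sylow Q
    have h2 : x ∈ zpowers x ⊓ normalizer (Q : Set G) := ⟨mem_zpowers x, h p Q hx⟩
    rw [this] at h2
    exact h2.2
  have hN : (K ⊓ (P : Subgroup G)).Normal := by
    refine ⟨fun x hx g => ⟨hK.conj_mem _ hx.1 g, key P _ (hK.conj_mem _ hx.1 g) ?_⟩⟩
    have h1 : IsPGroup p (zpowers x) := P.2.to_le (zpowers_le.2 hx.2)
    have := h1.map (MulAut.conj g).toMonoidHom
    rw [MonoidHom.map_zpowers] at this
    exact this
  set M := K ⊓ (P : Subgroup G) with hM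
  have hMp : IsPGroup p M := P.2.to_le inf_le_right
  have hM0 : M ≠ ⊥ := by
    obtain ⟨x, hx⟩ := exists_prime_orderOf_dvd_card' p hd
    have h1 : orderOf (x : G) = p := by rw [orderOf_coe, hx]
    have h2 : (x : G) ∈ M := ⟨x.2, key P _ x.2 (IsPGroup.of_card (n := 1) (by rw [Nat.card_zpowers, h1, pow_one]))⟩
    intro h0
    rw [h0, mem_bot] at h2
    rw [h2, orderOf_one] at h1
    exact hp.one_lt.ne h1
  -- a nontrivial element of `M` centralised by `P`
  obtain ⟨z, hz, hz1, hzP⟩ : ∃ z ∈ M, z ≠ 1 ∧ ∀ y ∈ (P : Subgroup G), y * z = z * y := by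
    letI : MulAction P M := MulAction.compHom M
      ((MulAut.conjNormal : G →* MulAut M).comp (P : Subgroup G).subtype)
    have hd' : p ∣ Nat.card M := by
      obtain ⟨n, hn⟩ := IsPGroup.iff_card.1 hMp
      rw [hn]
      refine dvd_pow_self _ (fun h0 => hM0 (card_eq_one.1 (by rw [hn, h0, pow_zero])))
    obtain ⟨b, hb, hb1⟩ := P.2.exists_fixed_point_of_prime_dvd_card_of_fixed_point M hd'
      (a := 1) (fun g => map_one (MulAut.conjNormal (g : G)))
    refine ⟨b, b.2, fun h1 => hb1 (Subtype.ext h1.symm), fun y hy => ?_⟩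
    have := congrArg Subtype.val (hb ⟨y, hy⟩)
    have h3 : y * b * y⁻¹ = b := this
    exact mul_inv_eq_iff_eq_mul.1 h3
  have hC : centralizer ({z} : Set G) = ⊤ := by
    refine eq_top_of_sylow _ (fun r hr => ?_)
    by_cases hrp : r = p
    · subst hrp
      exact ⟨P, fun y hy => mem_centralizer_singleton_iff.2 (hzP y hy)⟩
    · let Q : Sylow r G := Sylow.nonempty.some
      refine ⟨Q, fun y hy => mem_centralizer_singleton_iff.2 ?_⟩
      have h1 : z * y⁻¹ * z⁻¹ * y ∈ (Q : Subgroup G) :=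
        mul_mem ((mem_set_normalizer_iff.1 (h r Q hz.1) _).1 (inv_mem hy)) hy
      have h2 : z * y⁻¹ * z⁻¹ * y ∈ M := by
        have := mul_mem hz (hN.conj_mem _ (inv_mem hz) y⁻¹)
        simpa [mul_assoc] using this
      have h3 := IsPGroup.disjoint_of_ne r p hrp _ _ Q.2 hMp
      have h4 : z * y⁻¹ * z⁻¹ * y = 1 := by
        have := disjoint_iff.1 h3
        rw [← mem_bot, ← this]; exact ⟨h1, h2⟩
      calc y * z = y * z * (z * y⁻¹ * z⁻¹ * y)⁻¹ * (z * y⁻¹ * z⁻¹ * y) := by group
        _ = z * y := by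
          have h5 : y * z = z * y := by
            have : z * y⁻¹ = y⁻¹ * z := by
              calc z * y⁻¹ = (z * y⁻¹ * z⁻¹ * y) * (y⁻¹ * z) := by group
                _ = _ := by rw [h4, one_mul]
            calc y * z = y * (z * y⁻¹) * y := by group
              _ = z * y := by rw [this]; group
          rw [h4]; simpa using h5
  have : z ∈ center G := by
    rw [mem_center_iff]; intro g
    exact mem_centralizer_singleton_iff.1 (hC ▸ mem_top g)
  rw [hZ, mem_bot] at this
  exact hz1 this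

theorem card_le_of_surj {X : Type*} [Group X] (φ : G →* X) (hφ : Function.Surjective φ) (p : ℕ)
    [Fact p.Prime] : Nat.card (Sylow p X) ≤ Nat.card (Sylow p G) :=
  Nat.card_le_card_of_surjective _ (Sylow.mapSurjective_surjective hφ p)

theorem norm_of_card {X : Type*} [Group X] (φ : G →* X) (hφ : Function.Surjective φ) (p : ℕ)
    [Fact p.Prime] (h : Nat.card (Sylow p G) ≤ Nat.card (Sylow p X)) (P : Sylow p G) :
    φ.ker ≤ normalizer ((P : Subgroup G) : Set G) := by
  haveI : Finite X := Finite.of_surjective _ hφ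
  have hb := (Sylow.mapSurjective_surjective hφ p).bijective_of_nat_card_le h
  intro k hk
  have : k • P = P := by
    apply hb.1
    apply Sylow.ext
    simp only [Sylow.coe_mapSurjective, Sylow.coe_subgroup_smul]
    ext x
    simp only [mem_map, mem_pointwise_smul_iff_inv_smul_mem]
    have hk1 : φ k = 1 := hk
    constructor
    · rintro ⟨y, hy, rfl⟩
      refine ⟨_, hy, ?_⟩
      simp [hk1]
    · rintro ⟨y, hy, rfl⟩
      refine ⟨k * y * k⁻¹, by simpa [mul_assoc] using hy, ?_⟩
      simp [hk1]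
  exact Sylow.smul_eq_iff_mem_normalizer.1 this

theorem other_prime (p r : ℕ) [hp : Fact p.Prime] [hr : Fact r.Prime] (S : Sylow p G)
    (R : Sylow r G) (hRS : (R : Subgroup G) ≤ normalizer ((S : Subgroup G) : Set G))
    (hlt : Nat.card (Sylow r G) < p ^ 2) (hd : p ∣ Nat.card (Sylow r G))
    (hm : ¬ p ≡ 1 [MOD r]) : False := by
  let X : SubMulAction (R : Subgroup G) (Sylow r G) :=
    { carrier := orbit (S : Subgroup G) R
      smul_mem' := by
        rintro c _ ⟨s, rfl⟩
        have h1 : (c : G) • R = R := Sylow.smul_eq_iff_mem_normalizer.2 (le_normalizer c.2)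
        refine ⟨⟨c * s * (c : G)⁻¹, (mem_set_normalizer_iff.1 (hRS c.2) _).1 s.2⟩, ?_⟩
        show ((c : G) * s * (c : G)⁻¹) • R = (c : G) • ((s : G) • R)
        rw [mul_smul, mul_smul, inv_smul_eq_iff.2 h1.symm] }
  have h1 := R.2.card_modEq_card_fixedPoints X
  have h2 : Nat.card (fixedPoints (R : Subgroup G) X) = 1 := by
    rw [Nat.card_eq_one_iff_exists]
    refine ⟨⟨⟨R, mem_orbit_self _⟩, fun c => Subtype.ext
      (Sylow.smul_eq_iff_mem_normalizer.2 (le_normalizer c.2))⟩, ?_⟩
    rintro ⟨⟨Q, hQ⟩, hQf⟩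
    have h3 : Q ∈ fixedPoints (R : Subgroup G) (Sylow r G) := fun c => congrArg Subtype.val (hQf c)
    have h4 := R.2.sylow_mem_fixedPoints_iff.1 h3
    have h5 : Q = R := Sylow.ext (R.3 Q.2 h4)
    subst h5; rfl
  obtain ⟨n, hn⟩ := S.2.card_orbit (α := Sylow r G) R
  have h6 : Nat.card X = p ^ n := hn
  rw [h2, h6] at h1
  have h7 : p ^ n ≤ Nat.card (Sylow r G) := by
    rw [← hn]; exact Nat.card_le_card_of_injective _ Subtype.val_injective
  have h8 : n < 2 := (Nat.pow_lt_pow_iff_right hp.out.one_lt).1 (h7.trans_lt hlt)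
  interval_cases n
  · have h9 : (S : Subgroup G) ≤ normalizer ((R : Subgroup G) : Set G) := by
      intro s hs
      apply Sylow.smul_eq_iff_mem_normalizer.1
      rw [pow_zero, Nat.card_eq_one_iff_unique] at hn
      have := hn.1.elim ⟨_, mem_orbit R (⟨s, hs⟩ : (S : Subgroup G))⟩ ⟨_, mem_orbit_self R⟩
      exact congrArg Subtype.val this
    rw [R.card_eq_index_normalizer] at hd
    exact S.not_dvd_index (hd.trans (index_dvd_of_le h9))
  · exact hm (by simpa using h1)

end Cfsg.Agent.SyN
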