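/-
Sylow numbers: groups of degree 18 with a regular normal subgroup in the point stabiliser.
-/
import Cfsg.Agent.SyN.A

set_option autoImplicit false
set_option linter.style.haveILetI false

namespace Cfsg.Agent.SyN

open Subgroup MulAction

variable {X Ω : Type*} [Group X] [Finite X] [MulAction X Ω] [Finite Ω]

/-- Three-point stabilisers are trivial. -/
def T3 (X Ω : Type*) [Group X] [MulAction X Ω] : Prop :=
  ∀ g : X, ∀ a b c : Ω, a ≠ b → b ≠ c → a ≠ c → g • a = a → g • b = b → g • c = c → g = 1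

theorem t3_of [FaithfulSMul X Ω] {p : ℕ} (hp : p.Prime) (hΩ : Nat.card Ω = p + 1)
    (hU : ∀ a : Ω, ∃ U : Subgroup X, Nat.card U = p ∧ U ≤ stabilizer X a ∧
      (∀ g : X, g • a = a → ∀ u ∈ U, g * u * g⁻¹ ∈ U) ∧
      ∀ b c : Ω, b ≠ a → c ≠ a → ∃ u ∈ U, u • b = c) : T3 X Ω := by
  intro g a b c hab hbc hac ha hb hc
  obtain ⟨U, hc1, hle, hn, htr⟩ := hU a
  haveI := Fact.mk hp
  have hcard : Nat.card {x : Ω // x ≠ a} = p := by
    classical
    haveI := Fintype.ofFinite Ω
    rw [Nat.card_eq_fintype_card] at hΩ ⊢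
    simp [hΩ]
  let f : U → {x : Ω // x ≠ a} := fun u => ⟨(u : X) • b, fun h => hab (by
    have h1 : (u : X) • a = a := hle u.2
    exact smul_left_cancel (u : X) (h1.trans h.symm))⟩
  have hfs : Function.Surjective f := fun x => by
    obtain ⟨u, hu, h⟩ := htr b x hab.symm x.2
    exact ⟨⟨u, hu⟩, Subtype.ext h⟩
  have hfi := (hfs.bijective_of_nat_card_le (by rw [hc1, hcard])).1
  obtain ⟨v, hv, hvb⟩ := htr b c hab.symm hac.symm
  have hb' : g⁻¹ • b = b := inv_smul_eq_iff.2 hb.symm
  have h1 : g * v * g⁻¹ = v := by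
    have := hfi (a₁ := ⟨_, hn g ha v hv⟩) (a₂ := ⟨v, hv⟩) (Subtype.ext (by
      show (g * v * g⁻¹) • b = v • b
      rw [mul_smul, mul_smul, hb', hvb, hc]))
    exact congrArg Subtype.val this
  have hv1 : (⟨v, hv⟩ : U) ≠ 1 := fun h => hbc (by
    have : v = 1 := congrArg Subtype.val h
    rw [← hvb, this, one_smul])
  have h2 : ∀ u ∈ U, g * u = u * g := by
    intro u hu
    obtain ⟨n, hn⟩ := mem_zpowers_iff.1 (mem_zpowers_of_prime_card hc1 hv1 (g' := ⟨u, hu⟩))
    have h3 : v ^ n = u := congrArg Subtype.val hn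
    have h4 : Commute g v := mul_inv_eq_iff_eq_mul.1 h1
    rw [← h3]; exact (h4.zpow_right n).eq
  refine eq_of_smul_eq_smul (α := Ω) (fun x => ?_)
  rw [one_smul]
  by_cases hx : x = a
  · rw [hx, ha]
  · obtain ⟨u, hu, rfl⟩ := htr b x hab.symm hx
    rw [← mul_smul, h2 u hu, mul_smul, hb]

theorem two_le (h3 : T3 X Ω) (a b c : Ω) (hab : a ≠ b) (hbc : b ≠ c) (hac : a ≠ c) :
    Nat.card ↥(stabilizer X a ⊓ stabilizer X b) ≤ Nat.card Ω - 2 := by
  have hcard : Nat.card {x : Ω // x ≠ a ∧ x ≠ b} = Nat.card Ω - 2 := by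
    classical
    haveI := Fintype.ofFinite Ω
    rw [Nat.card_eq_fintype_card, Nat.card_eq_fintype_card, Fintype.card_subtype]
    have : (Finset.univ.filter fun x : Ω => x ≠ a ∧ x ≠ b) = Finset.univ \ {a, b} := by
      ext x; simp
    rw [this, Finset.card_univ_diff, Finset.card_pair hab]
  rw [← hcard]
  let f : ↥(stabilizer X a ⊓ stabilizer X b) → {x : Ω // x ≠ a ∧ x ≠ b} := fun g =>
    ⟨(g : X) • c, fun h => hac (smul_left_cancel (g : X) (Eq.trans g.2.1 h.symm)),
      fun h => hbc (smul_left_cancel (g : X) (Eq.trans g.2.2 h.symm))⟩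
  refine Nat.card_le_card_of_injective f (fun g h hgh => ?_)
  have h1 : (g : X) • c = (h : X) • c := congrArg Subtype.val hgh
  have h2 := (h⁻¹ * g).2
  have := h3 ((h⁻¹ * g : ↥(stabilizer X a ⊓ stabilizer X b)) : X) a b c hab hbc hac h2.1 h2.2 (by
    show ((h : X)⁻¹ * g) • c = c
    rw [mul_smul, h1, inv_smul_smul])
  have h4 : h⁻¹ * g = 1 := Subtype.ext this
  exact (inv_mul_eq_one.1 h4).symm

theorem sylow_two (h3 : T3 X Ω) (a b : Ω) (hab : a ≠ b) (k m : ℕ) (hk : 2 ≤ k) (hm : Odd m)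
    (hH : Nat.card ↥(stabilizer X a ⊓ stabilizer X b) = 2 ^ k) (hX : Nat.card X = 2 ^ (k + 1) * m) :
    Nat.card (Sylow 2 X) = m := by
  set H := stabilizer X a ⊓ stabilizer X b with hHdef
  have hHp : IsPGroup 2 H := IsPGroup.of_card hH
  obtain ⟨T, hT⟩ := hHp.exists_le_sylow
  have hTc : Nat.card (T : Subgroup X) = 2 ^ (k + 1) := by
    rw [T.card_eq_multiplicity, hX, Nat.factorization_mul (by positivity) hm.pos.ne',
      Finsupp.add_apply, Nat.factorization_eq_zero_of_not_dvd (n := m) hm.not_two_dvd_nat]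
    simp [Nat.prime_two.factorization]
  have hri : ∀ L : Subgroup X, L ≤ T → Nat.card L = 2 ^ k → L.relIndex T = 2 := fun L hL hc => by
    have := (L.subgroupOf T).card_mul_index
    rw [Nat.card_congr (subgroupOfEquivOfLe hL).toEquiv, hc, hTc, pow_succ] at this
    exact Nat.eq_of_mul_eq_mul_left (by positivity) this
  have hN : IsPGroup 2 (normalizer ((T : Subgroup X) : Set X)) := by
    intro w
    let H' := H.map (MulAut.conj (w : X)).toMonoidHom
    have hH' : H' ≤ T := by
      rintro _ ⟨y, hy, rfl⟩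
      exact (mem_set_normalizer_iff.1 w.2 y).1 (hT hy)
    have hc' : Nat.card H' = 2 ^ k := by
      rw [card_map_of_injective (MulAut.conj (w : X)).injective, hH]
    have h1 : H'.relIndex H ≤ 2 := by
      have := relIndex_le_of_le_right (H := H') hT (by rw [hri H' hH' hc']; norm_num)
      rwa [hri H' hH' hc'] at this
    have h2 : H' ⊓ H ≠ ⊥ := fun h0 => by
      rw [← inf_relIndex_right, h0, relIndex_bot_left, hH] at h1
      have : 2 ^ 2 ≤ 2 ^ k := Nat.pow_le_pow_right (by norm_num) hk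
      omega
    obtain ⟨⟨h, ⟨y, hy, rfl⟩, hh⟩, h1⟩ := ne_bot_iff_exists_ne_one.1 h2
    have h1' : (w : X) * y * (w : X)⁻¹ ≠ 1 := fun h0 => h1 (Subtype.ext h0)
    have ha : ((w : X) * y * (w : X)⁻¹) • a = a := hh.1
    have hb : ((w : X) * y * (w : X)⁻¹) • b = b := hh.2
    have key : ∀ c : Ω, y • c = c → (w : X) • c = a ∨ (w : X) • c = b := fun c hc => by
      by_contra hne
      push Not at hne
      refine h1' (h3 _ a b _ hab hne.2.symm hne.1.symm ha hb ?_)
      rw [mul_smul, mul_smul, inv_smul_smul, hc]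
    have hwab : (w : X) • a ≠ (w : X) • b := fun h => hab (smul_left_cancel _ h)
    have h4 : (w : X) ^ 2 ∈ H := by
      refine ⟨?_, ?_⟩
      · show ((w : X) ^ 2) • a = a
        rw [sq, mul_smul]
        rcases key a hy.1 with h | h <;> rcases key b hy.2 with h' | h'
        · rw [h, h]
        · rw [h, h]
        · rw [h, h']
        · exact absurd (h.trans h'.symm) hwab
      · show ((w : X) ^ 2) • b = b
        rw [sq, mul_smul]
        rcases key a hy.1 with h | h <;> rcases key b hy.2 with h' | h'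
        · exact absurd (h.trans h'.symm) hwab
        · rw [h', h']
        · rw [h', h]
        · rw [h', h']
    obtain ⟨j, hj⟩ := hHp ⟨_, h4⟩
    refine ⟨j + 1, Subtype.ext ?_⟩
    have h5 : ((w : X) ^ 2) ^ 2 ^ j = 1 := congrArg Subtype.val hj
    rw [← pow_mul, ← pow_succ'] at h5
    exact h5
  have h6 : normalizer ((T : Subgroup X) : Set X) = T := T.3 hN le_normalizer
  have h7 := (T : Subgroup X).card_mul_index
  rw [T.card_eq_index_normalizer]
  have h8 : (normalizer (T : Set X)) = normalizer ((T : Subgroup X) : Set X) := rfl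
  rw [h8, h6]
  rw [hTc, hX] at h7
  exact Nat.eq_of_mul_eq_mul_left (by positivity) h7

theorem fac3 (m : ℕ) (hm : ¬ 3 ∣ m) : (3 ^ 2 * m).factorization 3 = 2 := by
  have h0 : m ≠ 0 := fun h => hm (h ▸ dvd_zero 3)
  rw [Nat.factorization_mul (by norm_num) h0, Finsupp.add_apply,
    Nat.factorization_eq_zero_of_not_dvd hm, Nat.Prime.factorization_pow Nat.prime_three]
  simp

theorem sylow_three (h3 : T3 X Ω) (hΩ : Nat.card Ω = 18) (x : X) (hx : orderOf x = 9)
    (hst : ∀ a : Ω, ¬ 3 ∣ Nat.card (stabilizer X a)) (d : ℕ) (hd : d = 8 ∨ d = 16)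
    (hX : Nat.card X = 306 * d) (hle : Nat.card (Sylow 3 X) ≤ 136) :
    136 ≤ Nat.card (Sylow 3 X) := by
  haveI : Fact (Nat.Prime 3) := ⟨Nat.prime_three⟩
  have hz : Nat.card (zpowers x) = 3 ^ 2 := by rw [Nat.card_zpowers, hx]; norm_num
  obtain ⟨R, hR⟩ := (IsPGroup.of_card hz).exists_le_sylow
  have hRc : Nat.card (R : Subgroup X) = 9 := by
    rw [R.card_eq_multiplicity, hX]
    rcases hd with rfl | rfl
    · have : (306 * 8).factorization 3 = 2 := fac3 272 (by norm_num)
      rw [this]; norm_num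
    · have : (306 * 16).factorization 3 = 2 := fac3 544 (by norm_num)
      rw [this]; norm_num
  have hRe : zpowers x = R := eq_of_le_of_card_ge hR (by rw [hRc, hz]; norm_num)
  have hfree : ∀ y ∈ (R : Subgroup X), ∀ a : Ω, y • a = a → y = 1 := fun y hy a ha => by
    by_contra h1
    obtain ⟨n, hn⟩ := (IsPGroup.iff_orderOf.1 R.2) ⟨y, hy⟩
    have h2 : orderOf y = 3 ^ n := by rw [← hn, ← orderOf_coe]
    have h4 : orderOf y ∣ Nat.card (stabilizer X a) := orderOf_dvd_natCard _ ha
    refine hst a (dvd_trans ?_ h4)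
    rw [h2]; refine dvd_pow_self _ (fun h0 => h1 ?_)
    rwa [h0, pow_zero, orderOf_eq_one_iff] at h2
  have hxR : x ∈ (R : Subgroup X) := hR (mem_zpowers x)
  have hx1 : x ≠ 1 := fun h => by rw [h, orderOf_one] at hx; omega
  have hx2 : x * x ≠ 1 := fun h => by
    have := orderOf_dvd_of_pow_eq_one (n := 2) (x := x) (by rw [sq, h])
    rw [hx] at this; omega
  set C := centralizer ((R : Subgroup X) : Set X) with hC
  have hCd : Nat.card C ∣ 18 := by
    have hfr : ∀ a : Ω, stabilizer C a = ⊥ := fun a => by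
      rw [eq_bot_iff]; intro c hc
      have hca : (c : X) • a = a := hc
      have hcx : x * c = c * x := c.2 x hxR
      rw [mem_bot]; apply Subtype.ext
      refine h3 c a (x • a) (x • x • a) (fun h => hx1 (hfree x hxR a h.symm))
        (fun h => hx1 (hfree x hxR _ h.symm))
        (fun h => hx2 (hfree _ (mul_mem hxR hxR) a (by rw [mul_smul]; exact h.symm))) hca ?_ ?_
      · rw [← mul_smul, ← hcx, mul_smul, hca]
      · rw [← mul_smul, ← hcx, mul_smul, ← mul_smul (c : X), ← hcx, mul_smul, hca]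
    have := Nat.card_congr (selfEquivOrbitsQuotientProd hfr)
    rw [Nat.card_prod, hΩ] at this
    exact Dvd.intro_left _ this.symm
  haveI : IsCyclic (R : Subgroup X) := hRe ▸ inferInstance
  have hA : Nat.card (MulAut (R : Subgroup X)) = 6 := by
    rw [IsCyclic.card_mulAut, hRc]; rfl
  set N := normalizer ((R : Subgroup X) : Set X) with hN
  have hNd : Nat.card N ∣ 108 := by
    have h1 := (R : Subgroup X).normalizerMonoidHom.ker.card_mul_index
    have h2 : (R : Subgroup X).normalizerMonoidHom.ker.index ∣ 6 := by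
      rw [index_ker, ← hA]; exact card_subgroup_dvd_card _
    have h4 : Nat.card (R : Subgroup X).normalizerMonoidHom.ker ∣ 18 := by
      rw [normalizerMonoidHom_ker,
        Nat.card_congr (subgroupOfEquivOfLe (centralizer_le_normalizer _)).toEquiv]
      exact hCd
    rw [← h1]; exact mul_dvd_mul h4 h2
  have h5 := N.card_mul_index
  have h6 : Nat.card (Sylow 3 X) = N.index := R.card_eq_index_normalizer
  have h7 := card_sylow_modEq_one 3 X
  rw [h6] at h7 hle ⊢
  rw [hX] at h5
  unfold Nat.ModEq at h7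
  have h8 : Nat.card N ≤ 108 := Nat.le_of_dvd (by norm_num) hNd
  generalize Nat.card N = n at *
  generalize N.index = i at *
  rcases hd with rfl | rfl <;> interval_cases n <;> omega

end Cfsg.Agent.SyN
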