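/-
Groups with the Sylow numbers of `PSL(2,17)`.
-/
import Cfsg.Agent.SyN.B
import Cfsg.Agent.S0732

set_option autoImplicit false
set_option linter.style.haveILetI false

namespace Cfsg.Agent.SyN

open Subgroup MulAction
open scoped MatrixGroups

instance fact17 : Fact (Nat.Prime 17) := ⟨by norm_num⟩

def m9 : SL(2, ZMod 17) := ⟨!![0, -1; 1, 7], by decide⟩

def e1 : SL(2, ZMod 17) := ⟨!![1, 1; 0, 1], by decide⟩

theorem m9_pow : m9 ^ 9 = 1 := by decide +kernel

theorem m9_nc : e1 * m9 ^ 3 ≠ m9 ^ 3 * e1 := by decide +kernel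

theorem ord9 {H : Type*} [Group H] (f : SL(2, ZMod 17) →* H) (hf : Function.Injective f) :
    ∃ x : H ⧸ center H, orderOf x = 9 := by
  haveI : Fact (Nat.Prime 3) := ⟨Nat.prime_three⟩
  refine ⟨QuotientGroup.mk' _ (f m9), orderOf_eq_prime_pow (p := 3) (n := 1) (fun h => ?_) ?_⟩
  · rw [pow_one, ← map_pow, ← map_pow, QuotientGroup.mk'_apply, QuotientGroup.eq_one_iff,
      mem_center_iff] at h
    have := h (f e1)
    rw [← map_mul, ← map_mul] at this
    exact m9_nc (hf this)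
  · rw [← map_pow, ← map_pow, show 3 ^ (1 + 1) = 9 from rfl, m9_pow, map_one, map_one]

theorem perm_part {Ω : Type*} [Fintype Ω] [DecidableEq Ω] (X : Subgroup (Equiv.Perm Ω))
    [IsPretransitive X Ω] (hΩ : Nat.card Ω = 18)
    (hU : ∀ a : Ω, ∃ U : Subgroup X, Nat.card U = 17 ∧ U ≤ stabilizer X a ∧
      (∀ g : X, g • a = a → ∀ u ∈ U, g * u * g⁻¹ ∈ U) ∧
      ∀ b c : Ω, b ≠ a → c ≠ a → ∃ u ∈ U, u • b = c)
    (hle : Nat.card (Sylow 3 X) ≤ 136) :
    (Nonempty (X ≃* PSL(2, ZMod 17)) ∨ Nonempty (X ≃* PGL(2, ZMod 17))) ∧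
      Nat.card (Sylow 2 X) = 153 ∧ 136 ≤ Nat.card (Sylow 3 X) ∧ Nat.card X ∣ 4896 := by
  have h3 : T3 X Ω := t3_of fact17.out hΩ hU
  obtain ⟨a, b, c, hab, hac, hbc⟩ : ∃ a b c : Ω, a ≠ b ∧ a ≠ c ∧ b ≠ c :=
    Fintype.two_lt_card_iff.1 (by rw [← Nat.card_eq_fintype_card, hΩ]; norm_num)
  set d := Nat.card ↥(stabilizer X a ⊓ stabilizer X b) with hd
  have hd16 : d ≤ 16 := by have := two_le h3 a b c hab hbc hac; rw [hΩ] at this; exact this
  have hi : ∀ x : Ω, (stabilizer X x).index = 18 := fun x => by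
    rw [index_stabilizer_of_transitive, hΩ]
  have h1 : Nat.card (stabilizer X a) = 17 * d := by
    have h2 : (stabilizer (stabilizer X a) b).index = 17 := by
      rw [index_stabilizer]
      have : orbit (stabilizer X a) b = {a}ᶜ := by
        ext x
        constructor
        · rintro ⟨g, rfl⟩ h
          have h4 : (g : X) • a = a := g.2
          exact hab (smul_left_cancel (g : X) (h4.trans (Eq.symm h)))
        · intro hx
          obtain ⟨U, -, hUle, -, htr⟩ := hU a
          obtain ⟨u, hu, h⟩ := htr b x hab.symm hx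
          exact ⟨⟨u, hUle hu⟩, h⟩
      rw [this, Set.ncard_compl, Set.ncard_singleton, hΩ]
    have h4 := (stabilizer (stabilizer X a) b).card_mul_index
    have h5 : stabilizer (stabilizer X a) b = (stabilizer X a ⊓ stabilizer X b).subgroupOf
        (stabilizer X a) := by
      ext g; simp [mem_subgroupOf]; rfl
    rw [h2, h5, Nat.card_congr (subgroupOfEquivOfLe inf_le_left).toEquiv] at h4
    rw [← h4, mul_comm]
  have hX : Nat.card X = (17 + 1) * 17 * d := by
    rw [← (stabilizer X a).card_mul_index, h1, hi]; ring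
  have hst : ∀ x : Ω, Nat.card (stabilizer X x) = 17 * d := fun x => by
    have := (stabilizer X x).card_mul_index
    rw [hi, hX] at this; omega
  have fin : (d = 8 ∨ d = 16) → (∃ x : X, orderOf x = 9) →
      Nat.card (Sylow 2 X) = 153 ∧ 136 ≤ Nat.card (Sylow 3 X) ∧ Nat.card X ∣ 4896 := by
    rintro h8 ⟨x, hx⟩
    refine ⟨?_, sylow_three h3 hΩ x hx (fun y => by rw [hst]; omega) d h8 (by rw [hX]) hle, ?_⟩
    · rcases h8 with h | h
      · exact sylow_two h3 a b hab 3 153 (by norm_num) (by decide) (hd ▸ h) (by rw [hX, h]; norm_num)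
      · exact sylow_two h3 a b hab 4 153 (by norm_num) (by decide) (hd ▸ h) (by rw [hX, h]; norm_num)
    · rw [hX]; rcases h8 with h | h <;> rw [h] <;> norm_num
  rcases S0732.result fact17.out (by rw [← Nat.card_eq_fintype_card, hΩ]) X hX (by omega) with
    ⟨h, ⟨e⟩⟩ | ⟨h, ⟨e⟩⟩ | ⟨q, -, hq, -⟩
  · refine ⟨Or.inr ⟨e⟩, fin (Or.inr h) ?_⟩
    obtain ⟨x, hx⟩ := ord9 (Matrix.SpecialLinearGroup.toGL (n := Fin 2) (R := ZMod 17))
      Matrix.SpecialLinearGroup.toGL_injective
    exact ⟨e.symm x, by rw [← hx]; exact MulEquiv.orderOf_eq _ _⟩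
  · refine ⟨Or.inl ⟨e⟩, fin (Or.inl (by omega)) ?_⟩
    obtain ⟨x, hx⟩ := ord9 (MonoidHom.id _) Function.injective_id
    exact ⟨e.symm x, by rw [← hx]; exact MulEquiv.orderOf_eq _ _⟩
  · exfalso
    have : 3 ∣ 2 ^ q := by rw [← hq]; norm_num
    have := Nat.prime_three.dvd_of_dvd_pow this
    omega

theorem main {G : Type*} [Group G] [Finite G] (hZ : center G = ⊥)
    (hNS : {c : ℕ | ∃ r : ℕ, r.Prime ∧ r ∣ Nat.card G ∧ c = Nat.card (Sylow r G)} =
      ({18, 136, 153} : Set ℕ)) :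
    Nonempty (G ≃* PSL(2, ZMod 17)) ∨ Nonempty (G ≃* PGL(2, ZMod 17)) := by
  classical
  have hmem : ∀ r : ℕ, r.Prime → r ∣ Nat.card G → Nat.card (Sylow r G) = 18 ∨
      Nat.card (Sylow r G) = 136 ∨ Nat.card (Sylow r G) = 153 := fun r hr hd => by
    have : Nat.card (Sylow r G) ∈ ({18, 136, 153} : Set ℕ) := by
      rw [← hNS]; exact ⟨r, hr, hd, rfl⟩
    simpa using this
  have h18 : 18 ∣ Nat.card G ∧ 17 ∣ Nat.card G := by
    have : 153 ∈ {c : ℕ | ∃ r : ℕ, r.Prime ∧ r ∣ Nat.card G ∧ c = Nat.card (Sylow r G)} := by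
      rw [hNS]; simp
    have h' : 136 ∈ {c : ℕ | ∃ r : ℕ, r.Prime ∧ r ∣ Nat.card G ∧ c = Nat.card (Sylow r G)} := by
      rw [hNS]; simp
    obtain ⟨r, hr, -, h⟩ := this
    obtain ⟨s, hs, -, h'⟩ := h'
    haveI := Fact.mk hr
    haveI := Fact.mk hs
    have h1 : 153 ∣ Nat.card G := by
      rw [h]; exact (Sylow.card_dvd_index (Sylow.nonempty.some : Sylow r G)).trans (index_dvd_card _)
    have h2 : 136 ∣ Nat.card G := by
      rw [h']; exact (Sylow.card_dvd_index (Sylow.nonempty.some : Sylow s G)).trans (index_dvd_card _)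
    omega
  haveI : Fact (Nat.Prime 3) := ⟨Nat.prime_three⟩
  have n17 : Nat.card (Sylow 17 G) = 18 := by
    have := card_sylow_modEq_one 17 G
    have := hmem 17 fact17.out h18.2
    unfold Nat.ModEq at *; omega
  have n2 : Nat.card (Sylow 2 G) = 153 := by
    have := card_sylow_modEq_one 2 G
    have := hmem 2 Nat.prime_two (by omega)
    unfold Nat.ModEq at *; omega
  have n3 : Nat.card (Sylow 3 G) = 136 := by
    have := card_sylow_modEq_one 3 G
    have := hmem 3 Nat.prime_three (by omega)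
    unfold Nat.ModEq at *; omega
  haveI := Fintype.ofFinite (Sylow 17 G)
  let φ := toPermHom G (Sylow 17 G)
  let ψ := φ.rangeRestrict
  have hψ : Function.Surjective ψ := φ.rangeRestrict_surjective
  have hsm : ∀ (g : G) (a : Sylow 17 G), ψ g • a = g • a := fun _ _ => rfl
  haveI : IsPretransitive φ.range (Sylow 17 G) := ⟨fun a b => by
    obtain ⟨g, hg⟩ := exists_smul_eq G a b
    exact ⟨ψ g, hg⟩⟩
  have hK : ∀ S : Sylow 17 G, ψ.ker ≤ normalizer ((S : Subgroup G) : Set G) := fun S k hk => by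
    apply Sylow.smul_eq_iff_mem_normalizer.1
    rw [← hsm, show ψ k = 1 from hk, one_smul]
  obtain ⟨hiso, h2, h3, hX⟩ := perm_part φ.range n17 (fun a => by
    have htr : ∀ b c : Sylow 17 G, b ≠ a → c ≠ a → ∃ u ∈ (a : Subgroup G), u • b = c := by
      intro b c hb hc
      obtain ⟨n, hn⟩ := a.2.card_orbit (α := Sylow 17 G) b
      have hsub : orbit (a : Subgroup G) b ⊆ {a}ᶜ := by
        rintro _ ⟨g, rfl⟩ h
        have h4 : (g : G) • a = a := Sylow.smul_eq_iff_mem_normalizer.2 (le_normalizer g.2)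
        exact hb (smul_left_cancel (g : G) (Eq.trans h h4.symm))
      have hc17 : ({a}ᶜ : Set (Sylow 17 G)).ncard = 17 := by
        rw [Set.ncard_compl, Set.ncard_singleton, n17]
      have hn0 : n ≠ 0 := fun h0 => by
        rw [h0, pow_zero, Nat.card_eq_one_iff_unique] at hn
        have h5 : b ∈ fixedPoints (a : Subgroup G) (Sylow 17 G) := fun g =>
          congrArg Subtype.val (hn.1.elim ⟨_, mem_orbit b g⟩ ⟨_, mem_orbit_self b⟩)
        exact hb (Sylow.ext (a.3 b.2 (a.2.sylow_mem_fixedPoints_iff.1 h5)))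
      have hge : 17 ≤ (orbit (a : Subgroup G) b).ncard := by
        rw [← Nat.card_coe_set_eq, hn]; exact Nat.le_self_pow hn0 17
      have heq := Set.eq_of_subset_of_ncard_le hsub (by rw [hc17]; exact hge)
      have hcm : c ∈ orbit (a : Subgroup G) b := by rw [heq]; exact hc
      obtain ⟨g, hg⟩ := hcm
      exact ⟨g, g.2, hg⟩
    refine ⟨(a : Subgroup G).map ψ, ?_, ?_, ?_, ?_⟩
    · obtain ⟨n, hn⟩ := IsPGroup.iff_card.1 (a.2.map ψ)
      have hd : 17 ^ n ∣ Nat.factorial 18 := by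
        rw [← hn, ← n17, ← Nat.card_perm]
        exact (card_subgroup_dvd_card _).trans (card_subgroup_dvd_card _)
      have hn2 : n < 2 := by
        by_contra h
        exact absurd ((pow_dvd_pow 17 (not_lt.1 h)).trans hd) (by norm_num [Nat.factorial])
      have hn0 : n ≠ 0 := fun h0 => by
        rw [h0, pow_zero, card_eq_one] at hn
        obtain ⟨x, y, z, hxy, hxz, hyz⟩ : ∃ x y z : Sylow 17 G, x ≠ y ∧ x ≠ z ∧ y ≠ z :=
          Fintype.two_lt_card_iff.1 (by rw [← Nat.card_eq_fintype_card, n17]; norm_num)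
        have : ∀ b c : Sylow 17 G, b ≠ a → c ≠ a → b = c := fun b c hb hc => by
          obtain ⟨u, hu, h⟩ := htr b c hb hc
          have h6 : ψ u = 1 := by rw [← mem_bot, ← hn]; exact mem_map_of_mem _ hu
          rw [← hsm, h6, one_smul] at h; exact h
        by_cases hx : x = a
        · exact hyz (this y z (hx ▸ hxy.symm) (hx ▸ hxz.symm))
        · by_cases hy : y = a
          · exact hxz (this x z hx (hy ▸ hyz.symm))
          · exact hxy (this x y hx hy)
      rw [hn, show n = 1 by omega, pow_one]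
    · rintro _ ⟨g, hg, rfl⟩
      exact Sylow.smul_eq_iff_mem_normalizer.2 (le_normalizer hg)
    · rintro g hg _ ⟨u, hu, rfl⟩
      obtain ⟨g, rfl⟩ := hψ g
      refine ⟨g * u * g⁻¹, (mem_set_normalizer_iff.1
        (Sylow.smul_eq_iff_mem_normalizer.1 hg) u).1 hu, by simp⟩
    · intro b c hb hc
      obtain ⟨u, hu, h⟩ := htr b c hb hc
      exact ⟨ψ u, mem_map_of_mem _ hu, h⟩) (n3 ▸ card_le_of_surj ψ hψ 3)
  have hbot : ψ.ker = ⊥ := by
    refine ker_bot hZ _ (fun r hr R => ?_)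
    by_cases r2 : r = 2
    · subst r2; exact norm_of_card ψ hψ 2 (by rw [n2, h2]) R
    by_cases r3 : r = 3
    · subst r3; exact norm_of_card ψ hψ 3 (by rw [n3]; exact h3) R
    by_cases r17 : r = 17
    · subst r17; exact hK R
    by_cases hd : r ∣ Nat.card G
    · exfalso
      have hnd : ¬ r ∣ 4896 := fun h => by
        have : r ∣ 2 ^ 5 * 3 ^ 2 * 17 := h
        rcases (Nat.Prime.dvd_mul hr.out).1 this with h | h
        · rcases (Nat.Prime.dvd_mul hr.out).1 h with h | h
          · exact r2 ((Nat.prime_dvd_prime_iff_eq hr.out Nat.prime_two).1 (hr.out.dvd_of_dvd_pow h))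
          · exact r3 ((Nat.prime_dvd_prime_iff_eq hr.out Nat.prime_three).1 (hr.out.dvd_of_dvd_pow h))
        · exact r17 ((Nat.prime_dvd_prime_iff_eq hr.out fact17.out).1 h)
      have hRK : (R : Subgroup G) ≤ ψ.ker := by
        rw [← Subgroup.map_eq_bot_iff, ← card_eq_one]
        obtain ⟨n, hn⟩ := IsPGroup.iff_card.1 (R.2.map ψ)
        by_contra h1
        refine hnd (dvd_trans ?_ ((card_subgroup_dvd_card ((R : Subgroup G).map ψ)).trans hX))
        rw [hn]; exact dvd_pow_self _ (fun h0 => h1 (by rw [hn, h0, pow_zero]))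
      let S : Sylow 17 G := Sylow.nonempty.some
      have hm := hmem r hr.out hd
      have h18' : Nat.card (Sylow r G) ≠ 18 := fun h => by
        have := card_sylow_modEq_one r G
        rw [h] at this
        have h7 : r ∣ 17 := (Nat.modEq_iff_dvd' (by norm_num)).1 this.symm
        exact r17 ((Nat.prime_dvd_prime_iff_eq hr.out fact17.out).1 h7)
      refine other_prime 17 r S R (hRK.trans (hK S)) (by omega) (by omega) (fun h => ?_)
      have h7 : r ∣ 2 ^ 4 := (Nat.modEq_iff_dvd' (by norm_num)).1 h.symm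
      exact r2 ((Nat.prime_dvd_prime_iff_eq hr.out Nat.prime_two).1 (hr.out.dvd_of_dvd_pow h7))
    · have : (R : Subgroup G) = ⊥ := by
        obtain ⟨n, hn⟩ := IsPGroup.iff_card.1 R.2
        rw [← card_eq_one]
        by_contra h1
        refine hd (dvd_trans ?_ (card_subgroup_dvd_card (R : Subgroup G)))
        rw [hn]; exact dvd_pow_self _ (fun h0 => h1 (by rw [hn, h0, pow_zero]))
      rw [this, normalizer_eq_top]; exact le_top
  let e : G ≃* φ.range := MulEquiv.ofBijective ψ ⟨(MonoidHom.ker_eq_bot_iff ψ).1 hbot, hψ⟩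
  rcases hiso with ⟨⟨f⟩⟩ | ⟨⟨f⟩⟩
  · exact Or.inl ⟨e.trans f⟩
  · exact Or.inr ⟨e.trans f⟩

end Cfsg.Agent.SyN
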